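import Cfsg.Agent.H685.Alperin
import Cfsg.Agent.H634.Quot
import Cfsg.Agent.H668.XZ.Up
import Cfsg.Agent.H690.OwnD.Descent

/-!
# S4791 + S4927: transfer of `X₀` to a normal subgroup and to a quotient (helper355)

* `x0_le_of_sup` : `x0 G ≤ x0 N` if `p ∤ |G : N|` and `N C_G(P) = G`;
* `sup_of_index` : `N C_G(P) = G` if `G / N` is abelian and every coset of `N` contains an element `c` with
  `p ∤ |G : C_G(c)|`; `x0_le_of_index`;
* `x0_le_of_lin` : `x0 G ≤ x0 N` if `p ∤ |G : N|`, `G / N` is abelian and the only linear character of `G / N` in the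
  principal block is trivial;
* `x0_le_map` : `x0 N ≤ x0 S` for a surjective homomorphism `N → S` whose kernel has order prime to `p`;
* `x0_le_psl` : the combination `G ≥ N → S`.
-/

set_option autoImplicit false
set_option linter.unusedVariables false

open scoped ComplexConjugate

namespace Cfsg.Agent.H355.XZ

open Cfsg Cfsg.Agent.Characters Cfsg.Agent.Characters.Core Cfsg.Agent.H674.XZ Cfsg.Agent.H690.OwnD Cfsg.Agent.H666.Clif

universe u v

variable {p : ℕ} [hp : Fact p.Prime] {M : Ideal AlgInt} {G : Type u} [Group G] [Finite G]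

omit hp [Finite G] in
theorem alm_comp {X : Type*} {Y : Type*} {χ : X → ℂ} (h : Alm p χ) (f : Y → X) : Alm p (fun y => χ (f y)) := by
  obtain ⟨n, h1, h2, h3⟩ := h
  exact ⟨n, h1, h2, fun y => h3 (f y)⟩

omit [Finite G] in
theorem charDegree_comp_one {H : Type v} [Group H] {χ : G → ℂ} {ψ : H → ℂ} (h : ψ 1 = χ 1) :
    charDegree ψ = charDegree χ := by
  rw [Blocks.Basic.charDegree_def, Blocks.Basic.charDegree_def, h]

/-- restriction of the members of `X₀` -/
theorem mem0_restrict (hM : IsPModular p M) {N : Subgroup G} [hN : N.Normal] {χ : IrrCharacter G} (hχ : Mem0 p M χ)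
    (hirr : IsIrrCharacter N (fun n : N => (χ : G → ℂ) n)) :
    Mem0 p M (⟨fun n : N => (χ : G → ℂ) n, hirr⟩ : IrrCharacter N) := by
  refine ⟨H685.Alperin.restrict_mem hM hχ.1 hirr, fun h => hχ.2.1 ?_, alm_comp hχ.2.2 _⟩
  have h1 : charDegree (fun n : N => (χ : G → ℂ) n) = charDegree (χ : G → ℂ) := charDegree_comp_one rfl
  rwa [← h1]

/-- **(a)** `N C_G(P) = G` -/
theorem x0_le_of_sup (hM : IsPModular p M) (N : Subgroup G) [N.Normal] (hidx : ¬ p ∣ N.index) (P : Sylow p G)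
    (hsup : N ⊔ Subgroup.centralizer ((P : Subgroup G) : Set G) = ⊤) : x0 p M G ≤ x0 p M N := by
  have hirr : ∀ χ : {χ : IrrCharacter G // Mem0 p M χ}, IsIrrCharacter N (fun n : N => (χ.1 : G → ℂ) n) := fun χ =>
    H685.Alperin.isIrr_restrict hM P hsup χ.2.1
  have : Finite (IrrCharacter N) := finite_irr
  refine Nat.card_le_card_of_injective
    (fun χ : {χ : IrrCharacter G // Mem0 p M χ} =>
      (⟨⟨fun n : N => (χ.1 : G → ℂ) n, hirr χ⟩, mem0_restrict hM χ.2 (hirr χ)⟩ : {χ : IrrCharacter N // Mem0 p M χ})) ?_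
  intro χ ψ h
  apply Subtype.ext
  refine H685.Alperin.unique hM hidx P hsup ψ.2.1 χ.2.1 fun n => ?_
  exact congrFun (congrArg (fun x : {χ : IrrCharacter N // Mem0 p M χ} => (x.1 : N → ℂ)) h) n

/-- a conjugate of an element with centraliser of index prime to `p` centralises `P` -/
theorem exists_conj_mem (P : Sylow p G) {c : G} (hc : ¬ p ∣ (Subgroup.centralizer ({c} : Set G)).index) :
    ∃ g : G, g * c * g⁻¹ ∈ Subgroup.centralizer ((P : Subgroup G) : Set G) := by
  obtain ⟨Q⟩ : Nonempty (Sylow p (Subgroup.centralizer ({c} : Set G))) := inferInstance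
  have hQ : IsPGroup p ((Q : Subgroup (Subgroup.centralizer ({c} : Set G))).map
      (Subgroup.centralizer ({c} : Set G)).subtype) := Q.2.map _
  -- the image of `Q` is a Sylow subgroup of `G`
  have hcard : Nat.card ((Q : Subgroup (Subgroup.centralizer ({c} : Set G))).map
      (Subgroup.centralizer ({c} : Set G)).subtype) = p ^ (Nat.card G).factorization p := by
    rw [Nat.card_congr ((Q : Subgroup (Subgroup.centralizer ({c} : Set G))).equivMapOfInjective _
      (Subgroup.subtype_injective _)).toEquiv.symm, Q.card_eq_multiplicity]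
    congr 1
    have h1 := (Subgroup.centralizer ({c} : Set G)).card_mul_index
    rw [← h1, Nat.factorization_mul Nat.card_pos.ne' Subgroup.index_ne_zero_of_finite, Finsupp.add_apply,
      Nat.factorization_eq_zero_of_not_dvd hc, add_zero]
  let Q' : Sylow p G := Sylow.ofCard _ hcard
  obtain ⟨g, hg⟩ := MulAction.exists_smul_eq G Q' P
  refine ⟨g, ?_⟩
  rw [Subgroup.mem_centralizer_iff]
  intro x hx
  rw [← hg, Sylow.coe_subgroup_smul] at hx
  obtain ⟨y, hy, rfl⟩ := hx
  obtain ⟨z, -, rfl⟩ := hy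
  have h2 : (z : G) * c = c * z := (Subgroup.mem_centralizer_singleton_iff.1 z.2)
  change g * (z : G) * g⁻¹ * (g * c * g⁻¹) = g * c * g⁻¹ * (g * (z : G) * g⁻¹)
  have e1 : g * (z : G) * g⁻¹ * (g * c * g⁻¹) = g * ((z : G) * c) * g⁻¹ := by group
  have e2 : g * c * g⁻¹ * (g * (z : G) * g⁻¹) = g * (c * z) * g⁻¹ := by group
  rw [e1, e2, h2]

/-- every coset of `N` contains an element with centraliser of index prime to `p` -/
theorem sup_of_index (N : Subgroup G) [hN : N.Normal] (hab : ∀ x y : G, x * y * x⁻¹ * y⁻¹ ∈ N) (P : Sylow p G)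
    (h : ∀ g : G, ∃ c : G, ¬ p ∣ (Subgroup.centralizer ({c} : Set G)).index ∧ g * c⁻¹ ∈ N) :
    N ⊔ Subgroup.centralizer ((P : Subgroup G) : Set G) = ⊤ := by
  rw [eq_top_iff]
  intro g _
  obtain ⟨c, hc, hg⟩ := h g
  obtain ⟨y, hy⟩ := exists_conj_mem P hc
  have h1 : g * (y * c * y⁻¹)⁻¹ ∈ N := by
    have e : g * (y * c * y⁻¹)⁻¹ = (g * c⁻¹) * (c * y * c⁻¹ * y⁻¹) := by group
    rw [e]
    exact N.mul_mem hg (hab c y)
  have e : g = (g * (y * c * y⁻¹)⁻¹) * (y * c * y⁻¹) := by group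
  rw [e]
  exact Subgroup.mul_mem_sup h1 hy

/-- **(a')** -/
theorem x0_le_of_index (hM : IsPModular p M) (N : Subgroup G) [N.Normal] (hidx : ¬ p ∣ N.index)
    (hab : ∀ x y : G, x * y * x⁻¹ * y⁻¹ ∈ N)
    (h : ∀ g : G, ∃ c : G, ¬ p ∣ (Subgroup.centralizer ({c} : Set G)).index ∧ g * c⁻¹ ∈ N) :
    x0 p M G ≤ x0 p M N := by
  obtain ⟨P⟩ : Nonempty (Sylow p G) := inferInstance
  exact x0_le_of_sup hM N hidx P (sup_of_index N hab P h)

/-! ### linear characters -/

/-- a twist fixing a member of the principal block lies in the principal block -/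
theorem tl_mem_of_eq (hMp : M.IsPrime) {l : G →* ℂˣ} {χ ψ : IrrCharacter G} (hχ : χ ∈ principalBlock M G)
    (hψ : ψ ∈ principalBlock M G) (h : tl l χ = ψ) : tl l (one G) ∈ principalBlock M G := by
  rw [mem_pb] at hχ hψ ⊢
  have h1 := H666.Clif.sameBlock_tl hMp l hχ
  rw [h] at h1
  exact Blocks.Basic.sameBlock_trans hψ (Blocks.Basic.sameBlock_symm h1)

/-- **(a'')** the only linear character of `G / N` in the principal block is trivial -/
theorem x0_le_of_lin (hM : IsPModular p M) (N : Subgroup G) [hN : N.Normal]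
    (hab : ∀ x y : G, x * y * x⁻¹ * y⁻¹ ∈ N)
    (hlam : ∀ l : G →* ℂˣ, (∀ x ∈ N, l x = 1) → tl l (one G) ∈ principalBlock M G → l = 1) :
    x0 p M G ≤ x0 p M N := by
  classical
  have hMp : M.IsPrime := Blocks.Local.isPrime_of_isPModular hM
  let : Fintype G := Fintype.ofFinite G
  let : Fintype N := Fintype.ofFinite N
  -- the restriction is irreducible
  have hirr : ∀ χ : {χ : IrrCharacter G // Mem0 p M χ}, IsIrrCharacter N (fun n : N => (χ.1 : G → ℂ) n) := by
    intro χ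
    refine isIrr_of_classInner_self (isCharacter_comp N.subtype (isIrr_isCharacter χ.1.2)) ?_
    obtain ⟨Λ, h1, h2, h3, h4⟩ := CharactersDeep.AbelianQuotient.exists_linear_dual N hab
    have e1 : ∑ g : G, (∑ l ∈ Λ, (l g : ℂ)) * ((χ.1 : G → ℂ) g * conj ((χ.1 : G → ℂ) g)) =
        (N.index : ℂ) * ∑ n : N, (χ.1 : G → ℂ) n * conj ((χ.1 : G → ℂ) n) := by
      have e2 : ∀ g : G, (∑ l ∈ Λ, (l g : ℂ)) * ((χ.1 : G → ℂ) g * conj ((χ.1 : G → ℂ) g)) =
          if g ∈ N then (N.index : ℂ) * ((χ.1 : G → ℂ) g * conj ((χ.1 : G → ℂ) g)) else 0 := by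
        intro g
        split_ifs with hg
        · rw [h3 g hg]
        · rw [h4 g hg, zero_mul]
      rw [Finset.sum_congr rfl fun g _ => e2 g, ← Finset.sum_filter, Finset.mul_sum]
      exact (Finset.sum_subtype _ (fun x => by simp) _)
    have e3 : ∑ g : G, (∑ l ∈ Λ, (l g : ℂ)) * ((χ.1 : G → ℂ) g * conj ((χ.1 : G → ℂ) g)) =
        ∑ l ∈ Λ, (Nat.card G : ℂ) * classInner (tl l χ.1 : G → ℂ) (χ.1 : G → ℂ) := by
      simp_rw [Finset.sum_mul]
      rw [Finset.sum_comm]
      refine Finset.sum_congr rfl fun l _ => ?_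
      rw [classInner_def, mul_inv_cancel_left₀ card_ne_zero_complex]
      refine Finset.sum_congr rfl fun g _ => ?_
      rw [tl_apply, mul_assoc]
    have h1Λ : (1 : G →* ℂˣ) ∈ Λ := (h1 1).2 fun n _ => rfl
    have e4 : ∀ l ∈ Λ, l ≠ 1 → (Nat.card G : ℂ) * classInner (tl l χ.1 : G → ℂ) (χ.1 : G → ℂ) = 0 := by
      intro l hl hne
      rw [classInner_irr_ne (tl l χ.1).2 χ.1.2, mul_zero]
      intro h5
      exact hne (hlam l ((h1 l).1 hl) (tl_mem_of_eq hMp χ.2.1 χ.2.1 (Subtype.ext h5)))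
    rw [Finset.sum_eq_single_of_mem (1 : G →* ℂˣ) h1Λ e4, tl_one, classInner_irr_self χ.1.2, mul_one] at e3
    rw [e3] at e1
    have hidx : (N.index : ℂ) ≠ 0 := Nat.cast_ne_zero.2 Subgroup.index_ne_zero_of_finite
    have hcN : (Nat.card N : ℂ) ≠ 0 := card_ne_zero_complex
    rw [classInner_def]
    have h6 : (Nat.card G : ℂ) = Nat.card N * N.index := by
      rw [← Nat.cast_mul, N.card_mul_index]
    rw [h6] at e1
    have h7 : (Nat.card N : ℂ) = ∑ n : N, (χ.1 : G → ℂ) n * conj ((χ.1 : G → ℂ) n) :=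
      mul_left_cancel₀ hidx (by rw [← e1]; ring)
    rw [← h7]
    exact inv_mul_cancel₀ hcN
  have : Finite (IrrCharacter N) := finite_irr
  refine Nat.card_le_card_of_injective
    (fun χ : {χ : IrrCharacter G // Mem0 p M χ} =>
      (⟨⟨fun n : N => (χ.1 : G → ℂ) n, hirr χ⟩, mem0_restrict hM χ.2 (hirr χ)⟩ : {χ : IrrCharacter N // Mem0 p M χ})) ?_
  intro χ ψ h
  have h1 : ∀ n : N, (χ.1 : G → ℂ) n = (ψ.1 : G → ℂ) n := fun n =>
    congrFun (congrArg (fun x : {χ : IrrCharacter N // Mem0 p M χ} => (x.1 : N → ℂ)) h) n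
  obtain ⟨l, hl, hlψ⟩ := H668.XZ.exists_twist N hab χ.1.2 ψ.1.2 (by
    rw [show (fun n : N => (ψ.1 : G → ℂ) n) = fun n : N => (χ.1 : G → ℂ) n from funext fun n => (h1 n).symm,
      classInner_irr_self (hirr χ)]
    exact one_ne_zero)
  have h2 : tl l χ.1 = ψ.1 := Subtype.ext (funext fun g => (hlψ g).symm)
  have h3 := hlam l hl (tl_mem_of_eq hMp χ.2.1 ψ.2.1 h2)
  apply Subtype.ext
  rw [← h2, h3, tl_one]

/-! ### quotients -/

/-- **(b)** a surjective homomorphism whose kernel has order prime to `p` -/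
theorem x0_le_map (hM : IsPModular p M) {S : Type v} [Group S] [Finite S] {π : G →* S} (hπ : Function.Surjective π)
    (hk : ¬ p ∣ Nat.card π.ker) : x0 p M G ≤ x0 p M S := by
  choose f hf hfe using fun χ : {χ : IrrCharacter G // Mem0 p M χ} =>
    Blocks.PrincipalInflate.exists_comp hM hπ hk χ.2.1
  have h1 : ∀ χ s, (f χ : S → ℂ) s = (χ.1 : G → ℂ) (hπ s).choose := by
    intro χ s
    rw [hfe χ]
    change _ = (f χ : S → ℂ) (π (hπ s).choose)
    rw [(hπ s).choose_spec]
  have hmem : ∀ χ, Mem0 p M (f χ) := by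
    intro χ
    refine ⟨hf χ, fun h => χ.2.2.1 ?_, ?_⟩
    · have h2 : charDegree (χ.1 : G → ℂ) = charDegree (f χ : S → ℂ) := by
        rw [hfe χ]
        refine charDegree_comp_one ?_
        change (f χ : S → ℂ) (π 1) = _
        rw [map_one]
      rwa [h2]
    · have h2 := alm_comp χ.2.2.2 (fun s : S => (hπ s).choose)
      have h3 : (fun s : S => (χ.1 : G → ℂ) (hπ s).choose) = (f χ : S → ℂ) := funext fun s => (h1 χ s).symm
      rwa [h3] at h2
  have : Finite (IrrCharacter S) := finite_irr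
  refine Nat.card_le_card_of_injective (fun χ => (⟨f χ, hmem χ⟩ : {χ : IrrCharacter S // Mem0 p M χ})) ?_
  intro χ ψ h
  have h2 : f χ = f ψ := congrArg Subtype.val h
  apply Subtype.ext
  apply Subtype.ext
  rw [hfe χ, hfe ψ, h2]

/-- **(a') + (b)**: `G ≥ N → S` -/
theorem x0_le_of_index_map (hM : IsPModular p M) (N : Subgroup G) [N.Normal] (hidx : ¬ p ∣ N.index)
    (hab : ∀ x y : G, x * y * x⁻¹ * y⁻¹ ∈ N)
    (h : ∀ g : G, ∃ c : G, ¬ p ∣ (Subgroup.centralizer ({c} : Set G)).index ∧ g * c⁻¹ ∈ N)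
    {S : Type v} [Group S] [Finite S] {π : N →* S} (hπ : Function.Surjective π) (hk : ¬ p ∣ Nat.card π.ker) :
    x0 p M G ≤ x0 p M S :=
  (x0_le_of_index hM N hidx hab h).trans (x0_le_map hM hπ hk)

/-- **(a'') + (b)** -/
theorem x0_le_of_lin_map (hM : IsPModular p M) (N : Subgroup G) [N.Normal]
    (hab : ∀ x y : G, x * y * x⁻¹ * y⁻¹ ∈ N)
    (hlam : ∀ l : G →* ℂˣ, (∀ x ∈ N, l x = 1) → tl l (one G) ∈ principalBlock M G → l = 1)
    {S : Type v} [Group S] [Finite S] {π : N →* S} (hπ : Function.Surjective π) (hk : ¬ p ∣ Nat.card π.ker) :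
    x0 p M G ≤ x0 p M S :=
  (x0_le_of_lin hM N hab hlam).trans (x0_le_map hM hπ hk)

end Cfsg.Agent.H355.XZ
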